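import Mathlib
import Cfsg.Agent.Lib.Lead.CharGalois

set_option autoImplicit false

namespace Cfsg.Agent.Lib.Lead

open Polynomial

section Cyclo

variable (N : ℕ) [NeZero N]

/-- AM–GM inequality on Galois conjugates, norm version. -/
theorem card_units_le_sum_norm {ι : Type*} [Fintype ι] (μ : ι → ℂ) (h : ∀ i, μ i ^ N = 1)
    (hne : ∑ i, μ i ≠ 0) :
    (Fintype.card (ZMod N)ˣ : ℝ) ≤ ∑ k : (ZMod N)ˣ, ‖∑ i, μ i ^ (ZMod.val (k : ZMod N))‖ := by
  classical
  obtain ⟨z, hz, hz0⟩ := prod_units_sum_pow N μ h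
  have hz1 : (1 : ℝ) ≤ ‖(z : ℂ)‖ := by
    have : (1 : ℤ) ≤ |z| := Int.one_le_abs (hz0 hne)
    rw [Complex.norm_intCast]; exact_mod_cast this
  have hprod : (1 : ℝ) ≤ ∏ k : (ZMod N)ˣ, ‖∑ i, μ i ^ (ZMod.val (k : ZMod N))‖ := by
    rw [← norm_prod, hz]
    exact hz1
  have hm : 0 < (Fintype.card (ZMod N)ˣ : ℝ) := by
    exact_mod_cast Fintype.card_pos
  have key := Real.geom_mean_le_arith_mean (Finset.univ : Finset (ZMod N)ˣ) (fun _ => (1 : ℝ))
    (fun k => ‖∑ i, μ i ^ (ZMod.val (k : ZMod N))‖) (fun _ _ => zero_le_one)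
    (by simpa using hm) (fun _ _ => by positivity)
  simp only [Real.rpow_one, Finset.sum_const, Finset.card_univ, nsmul_eq_mul, mul_one, one_mul]
    at key
  have h1 : (1 : ℝ) ≤ (∏ k : (ZMod N)ˣ, ‖∑ i, μ i ^ (ZMod.val (k : ZMod N))‖) ^
      ((Fintype.card (ZMod N)ˣ : ℝ))⁻¹ :=
    Real.one_le_rpow hprod (by positivity)
  have h2 := le_trans h1 key
  rwa [le_div_iff₀ hm, one_mul] at h2

end Cyclo

section Rep

variable {G : Type*} [Group G] [Finite G] {V : Type*} [AddCommGroup V] [Module ℂ V]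
  [FiniteDimensional ℂ V] (ρ : Representation ℂ G V)

theorem card_units_le_sum_norm_char [NeZero (Nat.card G)] (g : G)
    (hne : ρ.character g ≠ 0) :
    (Fintype.card (ZMod (Nat.card G))ˣ : ℝ) ≤ ∑ k : (ZMod (Nat.card G))ˣ,
      ‖ρ.character (g ^ (ZMod.val (k : ZMod (Nat.card G))))‖ := by
  obtain ⟨ι, _, μ, h1, h2⟩ := exists_eigen_data_card ρ g
  have h3 : ∑ i, μ i ≠ 0 := by
    have := h2 1; simp only [pow_one] at this; rwa [← this]
  have key := card_units_le_sum_norm (Nat.card G) μ h1 h3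
  refine le_trans key (le_of_eq ?_)
  apply Finset.sum_congr rfl; intro k _
  rw [h2]

theorem card_nonvanishing_le_sum_norm [DecidableEq G] (S : Finset G)
    (hS : ∀ g ∈ S, ∀ k : ℕ, k.Coprime (Nat.card G) → g ^ k ∈ S) :
    ((S.filter (fun g => ρ.character g ≠ 0)).card : ℝ) ≤ ∑ g ∈ S, ‖ρ.character g‖ := by
  haveI : NeZero (Nat.card G) := ⟨Nat.card_pos.ne'⟩
  have hA : ∀ k : (ZMod (Nat.card G))ˣ,
      ∑ g ∈ S, ‖ρ.character (g ^ (ZMod.val (k : ZMod (Nat.card G))))‖ =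
        ∑ g ∈ S, ‖ρ.character g‖ := by
    intro k
    have hk : (Nat.card G).Coprime (ZMod.val (k : ZMod (Nat.card G))) :=
      (ZMod.val_coe_unit_coprime k).symm
    have hinj : Function.Injective (fun g : G => g ^ (ZMod.val (k : ZMod (Nat.card G)))) :=
      (powCoprime hk).injective
    have himg : S.image (fun g : G => g ^ (ZMod.val (k : ZMod (Nat.card G)))) = S := by
      apply Finset.eq_of_subset_of_card_le
      · intro x hx
        obtain ⟨g, hg, rfl⟩ := Finset.mem_image.mp hx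
        exact hS g hg _ hk.symm
      · rw [Finset.card_image_of_injective _ hinj]
    conv_rhs => rw [← himg]
    rw [Finset.sum_image (fun a _ b _ hab => hinj hab)]
  have hm : 0 < (Fintype.card (ZMod (Nat.card G))ˣ : ℝ) := by
    exact_mod_cast Fintype.card_pos
  have hB : (Fintype.card (ZMod (Nat.card G))ˣ : ℝ) * ∑ g ∈ S, ‖ρ.character g‖ =
      ∑ g ∈ S, ∑ k : (ZMod (Nat.card G))ˣ,
        ‖ρ.character (g ^ (ZMod.val (k : ZMod (Nat.card G))))‖ := by
    rw [Finset.sum_comm, Finset.sum_congr rfl (fun k _ => hA k)]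
    simp
  have hC : (Fintype.card (ZMod (Nat.card G))ˣ : ℝ) *
      ((S.filter (fun g => ρ.character g ≠ 0)).card : ℝ) ≤
      ∑ g ∈ S, ∑ k : (ZMod (Nat.card G))ˣ,
        ‖ρ.character (g ^ (ZMod.val (k : ZMod (Nat.card G))))‖ := by
    rw [mul_comm, ← nsmul_eq_mul, ← Finset.sum_const, Finset.sum_filter]
    apply Finset.sum_le_sum
    intro g _
    split_ifs with h
    · exact card_units_le_sum_norm_char ρ g h
    · positivity
  rw [← hB] at hC
  exact le_of_mul_le_mul_left hC hm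

end Rep

section Fn

variable {G : Type*} [Group G] [Finite G]

/-- For a character `χ` and a set `S` closed under coprime powers, the number of elements of `S`
where `χ` does not vanish is at most `Σ_{g ∈ S} |χ(g)|`. -/
theorem isCharacter_card_nonvanishing_le_sum_norm {χ : G → ℂ} (hχ : Cfsg.IsCharacter G χ)
    [DecidableEq G] (S : Finset G)
    (hS : ∀ g ∈ S, ∀ k : ℕ, k.Coprime (Nat.card G) → g ^ k ∈ S) :
    ((S.filter (fun g => χ g ≠ 0)).card : ℝ) ≤ ∑ g ∈ S, ‖χ g‖ := by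
  obtain ⟨n, ρ, rfl⟩ := hχ
  exact card_nonvanishing_le_sum_norm ρ S hS

end Fn

end Cfsg.Agent.Lib.Lead
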