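import Mathlib
import Cfsg.Agent.Lib.Lead.CharPMod

set_option autoImplicit false
set_option maxHeartbeats 1600000

namespace Cfsg.Agent.Lib.Lead

open Cfsg Cfsg.Agent.Lib.Helper2 Cfsg.Agent.S0177
open scoped ComplexConjugate

universe u

/-- There is a maximal ideal of the algebraic integers containing `p`. -/
theorem exists_pmodular (p : ℕ) (hp : p.Prime) : ∃ M : Ideal AlgInt, IsPModular p M := by
  have hnu : Ideal.span {(p : AlgInt)} ≠ ⊤ := by
    intro h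
    rw [Ideal.span_singleton_eq_top] at h
    obtain ⟨γ, hγ⟩ := h.exists_right_inv
    have hp0 : (p : ℂ) ≠ 0 := by exact_mod_cast hp.ne_zero
    have h1 : (γ : ℂ) = ((1 / p : ℚ) : ℂ) := by
      have h0 := congrArg (fun t : AlgInt => (t : ℂ)) hγ
      simp only [MulMemClass.coe_mul, OneMemClass.coe_one] at h0
      have h0' : (p : ℂ) * (γ : ℂ) = 1 := by
        rw [← h0]; congr 1
      push_cast
      field_simp
      linear_combination h0'
    have h2 : IsIntegral ℤ ((1 / p : ℚ) : ℂ) := h1 ▸ γ.2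
    have h3 : IsIntegral ℤ (1 / p : ℚ) :=
      (isIntegral_algebraMap_iff (algebraMap ℚ ℂ).injective).mp h2
    obtain ⟨z, hz⟩ := IsIntegrallyClosed.isIntegral_iff.mp h3
    have hpq : (p : ℚ) ≠ 0 := by exact_mod_cast hp.ne_zero
    have h4 : (z : ℚ) * (p : ℚ) = 1 := by
      have : (z : ℚ) = 1 / p := by simpa using hz
      rw [this]; field_simp
    have h5 : z * (p : ℤ) = 1 := by exact_mod_cast h4
    have h6 : (p : ℤ) ∣ 1 := ⟨z, by rw [mul_comm]; exact h5.symm⟩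
    have h7 : p ∣ 1 := by exact_mod_cast h6
    exact hp.one_lt.ne' (Nat.dvd_one.mp h7)
  obtain ⟨M, hM, hle⟩ := Ideal.exists_le_maximal _ hnu
  exact ⟨M, hp, hM, hle (Ideal.mem_span_singleton_self _)⟩

/-- Frobenius modulo `p` for finite sums. -/
theorem sum_pow_prime_pow {R : Type*} [CommRing R] {p : ℕ} (hp : p.Prime) (a : ℕ) {ι : Type*}
    (s : Finset ι) (t : ι → R) :
    ∃ r : R, (∑ i ∈ s, t i) ^ (p ^ a) = ∑ i ∈ s, (t i) ^ (p ^ a) + p * r := by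
  classical
  induction s using Finset.induction_on with
  | empty =>
    refine ⟨0, ?_⟩
    have : p ^ a ≠ 0 := pow_ne_zero _ hp.ne_zero
    rw [Finset.sum_empty, Finset.sum_empty, zero_pow this, mul_zero, add_zero]
  | insert i s hi ih =>
    obtain ⟨r, hr⟩ := ih
    obtain ⟨r', hr'⟩ := exists_add_pow_prime_pow_eq hp (t i) (∑ j ∈ s, t j) a
    refine ⟨r + t i * (∑ j ∈ s, t j) * r', ?_⟩
    rw [Finset.sum_insert hi, Finset.sum_insert hi, hr', hr]; ring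

/-- `χ(u r)^(p^a) ≡ χ(r)^(p^a)` modulo `p` when `u^(p^a) = 1` commutes with `r`. -/
theorem char_pow_sub_preg {G : Type u} [Group G] [Fintype G] {p : ℕ} (hp : p.Prime)
    {χ : G → ℂ} (hχ : IsCharacter G χ) (a r : G) (hcomm : Commute a r) (k : ℕ)
    (ha : a ^ (p ^ k) = 1) :
    ∃ γ : AlgInt, χ (a * r) ^ (p ^ k) - χ r ^ (p ^ k) = (p : ℂ) * (γ : ℂ) := by
  classical
  obtain ⟨A, hA⟩ : ∃ A : Subgroup G, A = Subgroup.closure {a, r} := ⟨_, rfl⟩
  have haA : a ∈ A := by rw [hA]; exact Subgroup.subset_closure (by simp)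
  have hrA : r ∈ A := by rw [hA]; exact Subgroup.subset_closure (by simp)
  have hAcomm : ∀ u v : A, u * v = v * u := by
    have hk : ∀ x ∈ ({a, r} : Set G), ∀ y ∈ ({a, r} : Set G), x * y = y * x := by
      intro x hx y hy
      simp only [Set.mem_insert_iff, Set.mem_singleton_iff] at hx hy
      rcases hx with rfl | rfl <;> rcases hy with rfl | rfl
      · rfl
      · exact hcomm.eq
      · exact hcomm.eq.symm
      · rfl
    subst hA
    intro u v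
    exact (Subgroup.isMulCommutative_closure hk).is_comm.comm u v
  letI : Fintype A := Fintype.ofFinite A
  haveI : Finite (IrrCharacter A) := irr_finite
  letI : Fintype (IrrCharacter A) := Fintype.ofFinite _
  have hφ : IsCharacter A (fun x : A => χ x) := isCharacter_res A hχ
  obtain ⟨c, hc⟩ := isCharacter_eq_nat_sum hφ
  have hlin : ∀ ξ : IrrCharacter A, ∃ lam : A →* ℂˣ, ∀ x, (ξ : A → ℂ) x = (lam x : ℂ) :=
    fun ξ => exists_hom_of_linear ξ.2 (comm_iff_all_degree_one.mp hAcomm ξ)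
  choose lam hlam using hlin
  have hint : ∀ (ξ : IrrCharacter A) (x : A), IsIntegral ℤ ((lam ξ x : ℂˣ) : ℂ) := by
    intro ξ x
    rw [← hlam]
    exact isCharacter_isIntegral (isCharacter_of_isIrrCharacter ξ.2) x
  obtain ⟨u, hu⟩ : ∃ u : IrrCharacter A → AlgInt, ∀ ξ, (u ξ : ℂ) = ((lam ξ ⟨a, haA⟩ : ℂˣ) : ℂ) :=
    ⟨fun ξ => ⟨_, hint ξ ⟨a, haA⟩⟩, fun ξ => rfl⟩
  obtain ⟨w, hw⟩ : ∃ w : IrrCharacter A → AlgInt, ∀ ξ, (w ξ : ℂ) = ((lam ξ ⟨r, hrA⟩ : ℂˣ) : ℂ) :=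
    ⟨fun ξ => ⟨_, hint ξ ⟨r, hrA⟩⟩, fun ξ => rfl⟩
  have hu1 : ∀ ξ, u ξ ^ (p ^ k) = 1 := by
    intro ξ
    apply Subtype.ext
    rw [SubmonoidClass.coe_pow, hu, ← Units.val_pow_eq_pow_val, ← map_pow]
    have : (⟨a, haA⟩ : A) ^ (p ^ k) = 1 := Subtype.ext (by simpa using ha)
    rw [this, map_one]
    rfl
  obtain ⟨s, hs⟩ : ∃ s : Finset ((_ : IrrCharacter A) × ℕ),
      s = Finset.univ.sigma (fun ξ => Finset.range (c ξ)) := ⟨_, rfl⟩
  have h1 : χ (a * r) = ((∑ j ∈ s, u j.1 * w j.1 : AlgInt) : ℂ) := by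
    have := hc (⟨a, haA⟩ * ⟨r, hrA⟩)
    rw [show χ (a * r) = χ ((⟨a, haA⟩ * ⟨r, hrA⟩ : A) : G) from rfl, this, hs,
      Finset.sum_sigma]
    push_cast
    apply Finset.sum_congr rfl
    intro ξ _
    rw [Finset.sum_const, Finset.card_range, nsmul_eq_mul, hlam, map_mul, Units.val_mul, hu, hw]
  have h2 : χ r = ((∑ j ∈ s, w j.1 : AlgInt) : ℂ) := by
    have := hc ⟨r, hrA⟩
    rw [show χ r = χ ((⟨r, hrA⟩ : A) : G) from rfl, this, hs, Finset.sum_sigma]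
    push_cast
    apply Finset.sum_congr rfl
    intro ξ _
    rw [Finset.sum_const, Finset.card_range, nsmul_eq_mul, hlam, hw]
  obtain ⟨r1, hr1⟩ := sum_pow_prime_pow hp k s (fun j => u j.1 * w j.1)
  obtain ⟨r2, hr2⟩ := sum_pow_prime_pow hp k s (fun j => w j.1)
  have h3 : ∑ j ∈ s, (u j.1 * w j.1) ^ (p ^ k) = ∑ j ∈ s, (w j.1) ^ (p ^ k) := by
    apply Finset.sum_congr rfl
    intro j _
    rw [mul_pow, hu1, one_mul]
  refine ⟨r1 - r2, ?_⟩
  rw [h1, h2]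
  have h4 : (∑ j ∈ s, u j.1 * w j.1 : AlgInt) ^ (p ^ k) - (∑ j ∈ s, w j.1 : AlgInt) ^ (p ^ k)
      = (p : AlgInt) * (r1 - r2) := by
    rw [hr1, hr2, h3]; ring
  have h5 : ((((∑ j ∈ s, u j.1 * w j.1 : AlgInt) ^ (p ^ k) -
      (∑ j ∈ s, w j.1 : AlgInt) ^ (p ^ k) : AlgInt)) : ℂ) = (((p : AlgInt) * (r1 - r2) : AlgInt) : ℂ) :=
    congrArg (fun t : AlgInt => (t : ℂ)) h4
  rw [← SubmonoidClass.coe_pow, ← SubmonoidClass.coe_pow]
  push_cast at h5 ⊢
  exact h5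

end Cfsg.Agent.Lib.Lead
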